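/-
`SL_n(q)`, `n ≥ 4`, is generated by two conjugate regular unipotent elements: the upper Jordan block
`u` and `t u t⁻¹` for a transvection `t`.
-/
import Mathlib
import Cfsg.Agent.Lib.InvCentralizers.RegularGen

set_option autoImplicit false
set_option linter.unusedSectionVars false

open Matrix CfsgLib.InvCentralizers.RegularGen

namespace CfsgLib.Generators.RegularPair

theorem not_dvd_choose {p e n' : ℕ} (hp : p.Prime) (hn' : ¬ p ∣ n') :
    ¬ p ∣ ((n' * p ^ e - 1) + p ^ e).choose (p ^ e) := by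
  intro hd
  have hpos : n' ≠ 0 := fun h => hn' (h ▸ dvd_zero p)
  set N := n' * p ^ e with hN
  have hN0 : 0 < N := Nat.mul_pos (by omega) (pow_pos hp.pos e)
  have h := Nat.factorization_choose' (p := p) (n := N - 1) (k := p ^ e)
    (b := Nat.log p (N - 1 + p ^ e) + 1) hp (Nat.lt_succ_self _)
  have hzero : ((N - 1 + p ^ e).choose (p ^ e)).factorization p = 0 := by
    rw [h, Finset.card_eq_zero, Finset.filter_eq_empty_iff]
    intro i hi hle
    rcases le_or_gt i e with hie | hie
    · rw [Nat.mod_eq_zero_of_dvd (pow_dvd_pow p hie), zero_add] at hle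
      exact absurd (Nat.mod_lt (N - 1) (pow_pos hp.pos i)) (by omega)
    · obtain ⟨d, rfl⟩ : ∃ d, i = e + (d + 1) := ⟨i - e - 1, by omega⟩
      have hlt : p ^ e < p ^ (e + (d + 1)) := Nat.pow_lt_pow_right hp.one_lt (by omega)
      rw [Nat.mod_eq_of_lt hlt] at hle
      set m := p ^ (e + (d + 1)) with hm
      have hmlt := Nat.mod_lt (N - 1) (pow_pos hp.pos (e + (d + 1)))
      rw [← hm] at hmlt
      set r := (N - 1) % m with hr
      have hdm := Nat.div_add_mod (N - 1) m
      rw [← hr] at hdm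
      set q := (N - 1) / m with hq
      -- `N = m q + (r + 1)` and `p ^ e` divides `N`
      have he : p ^ e ∣ r + 1 := by
        have h1 : p ^ e ∣ m * q + (r + 1) :=
          ⟨n', by rw [← add_assoc, hdm, mul_comm]; omega⟩
        have h2 : p ^ e ∣ m * q := (pow_dvd_pow p (by omega)).mul_right q
        exact (Nat.dvd_add_right h2).1 h1
      have hmr : r + 1 = m := by
        obtain ⟨c, hc⟩ := he
        have hm' : m = p ^ e * p ^ (d + 1) := by rw [hm, pow_add]
        rw [hm'] at hle hmlt ⊢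
        rw [hc]
        have h3 : p ^ e * p ^ (d + 1) < p ^ e * (c + 1) + 1 := by rw [Nat.mul_succ]; omega
        have h4 : c ≤ p ^ (d + 1) := by
          by_contra h5
          have := Nat.mul_le_mul_left (p ^ e) (show p ^ (d + 1) + 1 ≤ c by omega)
          rw [Nat.mul_succ] at this
          have := pow_pos hp.pos e
          omega
        by_contra h5
        have h6 : c < p ^ (d + 1) := lt_of_le_of_ne h4 fun e' => h5 (by rw [e'])
        rcases Nat.lt_or_ge (c + 1) (p ^ (d + 1)) with h7 | h7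
        · have := Nat.mul_le_mul_left (p ^ e) (show c + 1 + 1 ≤ p ^ (d + 1) by omega)
          rw [Nat.mul_succ, Nat.mul_succ] at this
          have := pow_pos hp.pos e
          omega
        · have h8 : p ^ (d + 1) = c + 1 := by omega
          rw [h8, Nat.mul_succ] at hle hmlt
          omega
      have hNm : p ^ (e + 1) ∣ N := by
        have : N = m * q + m := by omega
        rw [this]
        have hpm : p ^ (e + 1) ∣ m := pow_dvd_pow p (by omega)
        exact dvd_add (hpm.mul_right q) hpm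
      rw [hN, pow_succ, mul_comm n' (p ^ e)] at hNm
      exact hn' ((Nat.mul_dvd_mul_iff_left (pow_pos hp.pos e)).1 hNm)
  exact hd.elim fun c hc => by
    have := (Nat.choose_pos (Nat.le_add_left (p ^ e) (N - 1))).ne'
    exact absurd hzero ((hp.factorization_pos_of_dvd this ⟨c, hc⟩).ne')

variable {F : Type*} [Field F] {n : ℕ}

theorem Ui_mul_U : Ui n F * U n F = 1 := mul_eq_one_comm.1 U_mul_Ui

/-- The first row of `Ui ^ s`. -/
theorem Ui_pow_first {i0 : Fin n} (hi0 : (i0 : ℕ) = 0) : ∀ (s : ℕ) (j : Fin n),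
    (Ui n F ^ (s + 1)) i0 j = (-1 : F) ^ (j : ℕ) * ((s + j).choose j : F) := by
  intro s
  induction s with
  | zero =>
    intro j
    simp [Ui, hi0, Fin.lt_def]
  | succ s ih =>
    intro j
    have key : ∀ k : Fin n, (Ui n F ^ (s + 1 + 1) * U n F) i0 k = (Ui n F ^ (s + 1)) i0 k := by
      intro k
      rw [pow_succ (Ui n F) (s + 1), Matrix.mul_assoc, Ui_mul_U, Matrix.mul_one]
    obtain ⟨j, hj⟩ := j
    induction j with
    | zero =>
      have := key ⟨0, hj⟩
      rw [Matrix.mul_apply, Finset.sum_eq_single (⟨0, hj⟩ : Fin n)] at this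
      · simp [U_apply] at this
        simpa [this] using ih ⟨0, hj⟩
      · intro b _ hb
        have : (b : ℕ) ≠ 0 := fun h => hb (Fin.ext h)
        simp [U_apply, this]
      · simp
    | succ j ihj =>
      have hj' : j < n := by omega
      have := key ⟨j + 1, hj⟩
      rw [Matrix.mul_apply, ← Finset.add_sum_erase _ _ (Finset.mem_univ (⟨j + 1, hj⟩ : Fin n)),
        Finset.sum_eq_single (⟨j, hj'⟩ : Fin n)] at this
      · simp [U_apply] at this
        rw [ihj hj'] at this
        rw [ih ⟨j + 1, hj⟩] at this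
        have e : ((s + 1 + (j + 1)).choose (j + 1) : F) =
            ((s + 1 + j).choose j : F) + ((s + (j + 1)).choose (j + 1) : F) := by
          rw [show s + 1 + (j + 1) = (s + 1 + j) + 1 by omega, Nat.choose_succ_succ,
            show s + 1 + j = s + (j + 1) by omega]
          push_cast; ring
        simp only at this ⊢
        rw [e]
        linear_combination this
      · intro b hb hbj
        obtain ⟨hb1, -⟩ := Finset.mem_erase.1 hb
        have h1 : (b : ℕ) ≠ j + 1 := fun h => hb1 (Fin.ext h)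
        have h3 : (b : ℕ) ≠ j := fun h => hbj (Fin.ext h)
        simp [U_apply, h1, h3]
      · simp [Fin.ext_iff]

section Setup

variable (hn : 2 ≤ n) (a : F)

/-- The first index. -/
def first : Fin n := ⟨0, by omega⟩

/-- The last index. -/
def last : Fin n := ⟨n - 1, by omega⟩

/-- The Jordan block in the special linear group. -/
def ju : SpecialLinearGroup (Fin n) F := ⟨U n F, det_U⟩

theorem last_ne_first : last hn ≠ first hn := fun h => by
  simp [last, first] at h; omega

/-- The translated centres. -/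
noncomputable def ctr (k : ℤ) : Fin n → F :=
  ((ju ^ k : SpecialLinearGroup (Fin n) F) : Matrix (Fin n) (Fin n) F) *ᵥ Pi.single (last hn) 1

/-- The translated axes. -/
noncomputable def axis (k : ℤ) : Fin n → F :=
  Pi.single (first hn) 1 ᵥ* ((ju ^ (-k) : SpecialLinearGroup (Fin n) F) : Matrix (Fin n) (Fin n) F)

/-- The translated transvections. -/
noncomputable def tv (c : F) (k : ℤ) : SpecialLinearGroup (Fin n) F :=
  ju ^ k * SpecialLinearGroup.transvection (last_ne_first hn) c * (ju ^ k)⁻¹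

/-- The upper corner of the powers of the Jordan block. -/
noncomputable def corner (k : ℤ) : F :=
  ((ju ^ k : SpecialLinearGroup (Fin n) F) : Matrix (Fin n) (Fin n) F) (first hn) (last hn)

theorem axis_dot_ctr (i j : ℤ) : axis (F := F) hn i ⬝ᵥ ctr hn j = corner hn (j - i) := by
  rw [axis, ctr, dotProduct_mulVec, vecMul_vecMul, dotProduct_single, mul_one,
    Matrix.single_one_vecMul, Matrix.row_apply, ← Matrix.SpecialLinearGroup.coe_mul, ← _root_.zpow_add,
    show -i + j = j - i by ring]
  rfl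

theorem corner_natCast (k : ℕ) : corner (F := F) hn k = (U n F ^ k) (first hn) (last hn) := by
  rw [corner, zpow_natCast, Matrix.SpecialLinearGroup.coe_pow]; rfl

theorem corner_zero {k : ℤ} (h0 : 0 ≤ k) (hk : k + 1 < n) : corner (F := F) hn k = 0 := by
  obtain ⟨m, rfl⟩ := Int.eq_ofNat_of_zero_le h0
  rw [corner_natCast]
  exact (U_pow_apply m _ _).1 (Or.inr (by simp [first, last]; omega))

theorem corner_one {k : ℤ} (hk : k + 1 = n) : corner (F := F) hn k = 1 := by
  obtain ⟨m, rfl⟩ := Int.eq_ofNat_of_zero_le (show 0 ≤ k by omega)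
  rw [corner_natCast]
  exact (U_pow_apply m _ _).2 (by simp [first, last]; omega)

theorem coe_ju_inv : (((ju (n := n) (F := F))⁻¹ : SpecialLinearGroup (Fin n) F) :
    Matrix (Fin n) (Fin n) F) = Ui n F := by
  refine left_inv_eq_right_inv ?_ U_mul_Ui
  change (((ju (n := n) (F := F))⁻¹ * ju : SpecialLinearGroup (Fin n) F) :
    Matrix (Fin n) (Fin n) F) = 1
  rw [inv_mul_cancel]; rfl

theorem corner_neg {s : ℕ} {k : ℤ} (hk : k + ((s : ℤ) + 1) = 0) :
    corner (F := F) hn k = (-1 : F) ^ (n - 1) * ((s + (n - 1)).choose (n - 1) : F) := by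
  rw [show k = -((s + 1 : ℕ) : ℤ) by push_cast; omega, corner, _root_.zpow_neg, zpow_natCast, ← inv_pow,
    Matrix.SpecialLinearGroup.coe_pow, coe_ju_inv, Ui_pow_first (i0 := first hn) rfl]
  rfl

theorem coe_tv (c : F) (k : ℤ) : (tv hn c k : Matrix (Fin n) (Fin n) F) =
    1 + vecMulVec (c • ctr hn k) (axis hn k) := by
  have h : (SpecialLinearGroup.transvection (last_ne_first hn) c :
      Matrix (Fin n) (Fin n) F) =
      1 + vecMulVec (c • Pi.single (last hn) 1) (Pi.single (first hn) 1) := by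
    rw [← Pi.single_smul, smul_eq_mul, mul_one, vecMulVec_single]
    rfl
  rw [tv, Matrix.SpecialLinearGroup.coe_mul, Matrix.SpecialLinearGroup.coe_mul, h, conj_rankOne,
    mulVec_smul, axis, ctr, _root_.zpow_neg]

theorem tv_mul (c d : F) (k : ℤ) : tv hn c k * tv hn d k = tv hn (c + d) k := by
  rw [tv, tv, tv]
  have : SpecialLinearGroup.transvection (last_ne_first hn) c *
      SpecialLinearGroup.transvection (last_ne_first hn) d =
      SpecialLinearGroup.transvection (last_ne_first hn) (c + d) := by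
    apply Subtype.ext
    exact Matrix.transvection_mul_transvection_same (last hn) (first hn) (last_ne_first hn) c d
  rw [← this]
  group

theorem tv_inv (c : F) (k : ℤ) : (tv hn c k)⁻¹ = tv hn (-c) k := by
  refine inv_eq_of_mul_eq_one_right ?_
  rw [tv_mul, add_neg_cancel]
  apply Subtype.ext
  rw [coe_tv]
  simp

/-- The group generated by the Jordan block and its conjugate. -/
noncomputable def grp : Subgroup (SpecialLinearGroup (Fin n) F) :=
  Subgroup.closure {ju, SpecialLinearGroup.transvection (last_ne_first hn) a * ju *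
    (SpecialLinearGroup.transvection (last_ne_first hn) a)⁻¹}

theorem ju_mem : ju ∈ grp hn a := Subgroup.subset_closure (Set.mem_insert _ _)

theorem ratio_succ_mem (i : ℤ) : tv hn a i * (tv hn a (i + 1))⁻¹ ∈ grp hn a := by
  have h : tv hn a i * (tv hn a (i + 1))⁻¹ =
      ju ^ i * ((SpecialLinearGroup.transvection (last_ne_first hn) a * ju *
        (SpecialLinearGroup.transvection (last_ne_first hn) a)⁻¹) * ju⁻¹) * (ju ^ i)⁻¹ := by
    rw [tv, tv, _root_.zpow_add_one]
    group
  rw [h]
  exact mul_mem (mul_mem (zpow_mem (ju_mem hn a) i)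
    (mul_mem (Subgroup.subset_closure (Set.mem_insert_of_mem _ rfl)) (inv_mem (ju_mem hn a))))
    (inv_mem (zpow_mem (ju_mem hn a) i))

theorem ratio_mem (i j : ℤ) : tv hn a i * (tv hn a j)⁻¹ ∈ grp hn a := by
  have hm : ∀ (i : ℤ) (m : ℕ), tv hn a i * (tv hn a (i + m))⁻¹ ∈ grp hn a := by
    intro i m
    induction m with
    | zero => simp
    | succ m ih =>
      have := mul_mem ih (ratio_succ_mem hn a (i + m))
      rw [Nat.cast_succ, ← add_assoc]
      rwa [← mul_assoc, inv_mul_cancel_right] at this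
  rcases le_total i j with h | h
  · obtain ⟨m, hm'⟩ := Int.eq_ofNat_of_zero_le (show 0 ≤ j - i by omega)
    rw [show j = i + m by omega]
    exact hm i m
  · obtain ⟨m, hm'⟩ := Int.eq_ofNat_of_zero_le (show 0 ≤ i - j by omega)
    have := inv_mem (hm j m)
    rw [_root_.mul_inv_rev, inv_inv] at this
    rwa [show i = j + m by omega]

theorem triple_commutator {R : Type*} [Ring R] (A B C : R) (hAA : A * A = 0) (hBB : B * B = 0)
    (hCC : C * C = 0) (hAB : A * B = 0) (hAC : A * C = 0) (hBC : B * C = 0) :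
    ((1 + B) * (1 - A) * ((1 + C) * (1 - A)) * ((1 + A) * (1 - B)) * ((1 + A) * (1 - C))) *
        ((1 + B) * (1 - A)) *
      ((1 + C) * (1 - A) * ((1 + B) * (1 - A)) * ((1 + A) * (1 - C)) * ((1 + A) * (1 - B))) *
      ((1 + A) * (1 - B)) = 1 + C * B * A := by
  have e1 : ∀ X : R, A * (A * X) = 0 := fun X => by rw [← mul_assoc, hAA, zero_mul]
  have e2 : ∀ X : R, B * (B * X) = 0 := fun X => by rw [← mul_assoc, hBB, zero_mul]
  have e3 : ∀ X : R, C * (C * X) = 0 := fun X => by rw [← mul_assoc, hCC, zero_mul]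
  have e4 : ∀ X : R, A * (B * X) = 0 := fun X => by rw [← mul_assoc, hAB, zero_mul]
  have e5 : ∀ X : R, A * (C * X) = 0 := fun X => by rw [← mul_assoc, hAC, zero_mul]
  have e6 : ∀ X : R, B * (C * X) = 0 := fun X => by rw [← mul_assoc, hBC, zero_mul]
  have h1 : (1 + B) * (1 - A) * ((1 + C) * (1 - A)) * ((1 + A) * (1 - B)) * ((1 + A) * (1 - C)) =
      1 + (C * A - B * A - C * B - C * B * A) := by
    simp only [mul_add, add_mul, mul_sub, sub_mul, mul_one, one_mul, mul_assoc, hAA, hBB, hCC,
      hAB, hAC, hBC, e1, e2, e3, e4, e5, e6, mul_zero, zero_mul]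
    abel
  have h2 : (1 + C) * (1 - A) * ((1 + B) * (1 - A)) * ((1 + A) * (1 - C)) * ((1 + A) * (1 - B)) =
      1 - (C * A - B * A - C * B - C * B * A) := by
    simp only [mul_add, add_mul, mul_sub, sub_mul, mul_one, one_mul, mul_assoc, hAA, hBB, hCC,
      hAB, hAC, hBC, e1, e2, e3, e4, e5, e6, mul_zero, zero_mul]
    abel
  rw [h1, h2]
  simp only [mul_add, add_mul, mul_sub, sub_mul, mul_one, one_mul, mul_assoc, hAA, hBB, hCC,
    hAB, hAC, hBC, e1, e2, e3, e4, e5, e6, mul_zero, zero_mul]
  abel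

theorem transvection_mem (h4 : 4 ≤ n) (k : ℤ) :
    1 + vecMulVec (a ^ 3 • ctr hn (k + 2)) (axis hn k) ∈ matSet (grp hn a) := by
  have base : 1 + vecMulVec (a ^ 3 • ctr hn 2) (axis hn 0) ∈ matSet (grp hn a) := by
    set A := vecMulVec (a • ctr (F := F) hn 0) (axis hn 0) with hA
    set B := vecMulVec (a • ctr (F := F) hn 1) (axis hn 1) with hB
    set C := vecMulVec (a • ctr (F := F) hn 2) (axis hn 2) with hC
    have hz : ∀ i j : ℤ, 0 ≤ j - i → j - i ≤ 2 →
        vecMulVec (a • ctr (F := F) hn i) (axis hn i) * vecMulVec (a • ctr hn j) (axis hn j) = 0 := by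
      intro i j h1 h2
      rw [vecMulVec_mul_vecMulVec, dotProduct_smul, axis_dot_ctr, corner_zero hn h1 (by omega)]
      ext; simp [vecMulVec]
    have hinv : ∀ i, ((tv hn a i)⁻¹ : SpecialLinearGroup (Fin n) F) = tv hn (-a) i := tv_inv hn a
    have hcoe : ∀ i, (((tv hn a i)⁻¹ : SpecialLinearGroup (Fin n) F) : Matrix (Fin n) (Fin n) F) =
        1 - vecMulVec (a • ctr hn i) (axis hn i) := by
      intro i
      rw [hinv, coe_tv]
      ext; simp [vecMulVec]; ring
    set d1 := tv hn a 1 * (tv hn a 0)⁻¹ with hd1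
    set d2 := tv hn a 2 * (tv hn a 0)⁻¹ with hd2
    have m1 : d1 ∈ grp hn a := ratio_mem hn a 1 0
    have m2 : d2 ∈ grp hn a := ratio_mem hn a 2 0
    set g := d1 * d2 * d1⁻¹ * d2⁻¹ * d1 * (d2 * d1 * d2⁻¹ * d1⁻¹) * d1⁻¹ with hg
    have hgm : g ∈ grp hn a :=
      mul_mem (mul_mem (mul_mem (mul_mem (mul_mem (mul_mem m1 m2) (inv_mem m1)) (inv_mem m2)) m1)
        (mul_mem (mul_mem (mul_mem m2 m1) (inv_mem m2)) (inv_mem m1))) (inv_mem m1)
    refine ⟨g, hgm, ?_⟩
    have e1 : (d1 : Matrix (Fin n) (Fin n) F) = (1 + B) * (1 - A) := by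
      rw [hd1, Matrix.SpecialLinearGroup.coe_mul, coe_tv, hcoe]
    have e2 : (d2 : Matrix (Fin n) (Fin n) F) = (1 + C) * (1 - A) := by
      rw [hd2, Matrix.SpecialLinearGroup.coe_mul, coe_tv, hcoe]
    have e1' : ((d1⁻¹ : SpecialLinearGroup (Fin n) F) : Matrix (Fin n) (Fin n) F) =
        (1 + A) * (1 - B) := by
      rw [hd1, _root_.mul_inv_rev, inv_inv, Matrix.SpecialLinearGroup.coe_mul, coe_tv, hcoe]
    have e2' : ((d2⁻¹ : SpecialLinearGroup (Fin n) F) : Matrix (Fin n) (Fin n) F) =
        (1 + A) * (1 - C) := by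
      rw [hd2, _root_.mul_inv_rev, inv_inv, Matrix.SpecialLinearGroup.coe_mul, coe_tv, hcoe]
    show (g : Matrix (Fin n) (Fin n) F) = _
    simp only [hg, Matrix.SpecialLinearGroup.coe_mul, e1, e2, e1', e2']
    rw [triple_commutator A B C (hz 0 0 (by omega) (by omega)) (hz 1 1 (by omega) (by omega))
      (hz 2 2 (by omega) (by omega)) (hz 0 1 (by omega) (by omega)) (hz 0 2 (by omega) (by omega))
      (hz 1 2 (by omega) (by omega))]
    congr 1
    have hε : corner (F := F) hn (-1) = (-1 : F) ^ (n - 1) := by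
      rw [corner_neg hn (s := 0) (by norm_num), zero_add, Nat.choose_self, Nat.cast_one, mul_one]
    rw [hC, hB, hA, vecMulVec_mul_vecMulVec, dotProduct_smul, axis_dot_ctr,
      show (1 : ℤ) - 2 = -1 by norm_num, hε]
    rw [vecMulVec_mul_vecMulVec, Matrix.smul_vecMulVec, smul_dotProduct, dotProduct_smul,
      axis_dot_ctr, show (0 : ℤ) - 1 = -1 by norm_num, hε]
    ext i j
    simp only [vecMulVec_apply, Pi.smul_apply, smul_eq_mul, Matrix.smul_apply]
    have : ((-1 : F) ^ (n - 1)) * (-1) ^ (n - 1) = 1 := by rw [← mul_pow]; simp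
    linear_combination (a ^ 3 * ctr (F := F) hn 2 i * axis hn 0 j) * this
  have h := conj_mem_matSet base (zpow_mem (ju_mem hn a) k)
  rw [conj_rankOne, mulVec_smul, ctr, mulVec_mulVec, ← Matrix.SpecialLinearGroup.coe_mul,
    ← _root_.zpow_add, axis, vecMul_vecMul, ← Matrix.SpecialLinearGroup.coe_mul,
    ← _root_.zpow_neg, ← _root_.zpow_add] at h
  rw [ctr, axis]
  rw [show -(0 : ℤ) + -k = -k by ring] at h
  exact h

/-- The centres of the transvections in the group with the axis `axis 0`. -/
def InL (x : Fin n → F) : Prop :=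
  axis hn 0 ⬝ᵥ x = 0 ∧ 1 + vecMulVec x (axis hn 0) ∈ matSet (grp hn a)

theorem InL.add {x y : Fin n → F} (hx : InL hn a x) (hy : InL hn a y) : InL hn a (x + y) := by
  refine ⟨by rw [dotProduct_add, hx.1, hy.1, add_zero], ?_⟩
  have := mul_mem_matSet hx.2 hy.2
  convert this using 1
  rw [Matrix.mul_add, Matrix.mul_one, Matrix.add_mul, Matrix.one_mul, vecMulVec_mul_vecMulVec, hy.1]
  ext i j; simp [vecMulVec]; ring

theorem InL.neg {x : Fin n → F} (hx : InL hn a x) : InL hn a (-x) := by
  refine ⟨by simp [hx.1], left_inv_mem_matSet hx.2 ?_⟩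
  rw [Matrix.mul_add, Matrix.mul_one, Matrix.add_mul, Matrix.one_mul, vecMulVec_mul_vecMulVec, hx.1]
  ext i j; simp [vecMulVec]

theorem InL.zero : InL hn a 0 := ⟨by simp, ⟨1, one_mem _, by ext i j; simp [vecMulVec]⟩⟩

theorem InL.ratio_move {y : Fin n → F} (hy : InL hn a y) {m : ℤ} (hm0 : 0 ≤ m) (hm : m + 1 < n) :
    InL hn a ((a * (axis hn m ⬝ᵥ y)) • ctr hn m) := by
  have hg : tv hn a m * (tv hn a 0)⁻¹ ∈ grp hn a := ratio_mem hn a m 0
  have hc := conj_mem_matSet hy.2 hg
  have hgx : ((tv hn a m * (tv hn a 0)⁻¹ : SpecialLinearGroup (Fin n) F) :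
      Matrix (Fin n) (Fin n) F) *ᵥ y = y + (a * (axis hn m ⬝ᵥ y)) • ctr hn m := by
    rw [Matrix.SpecialLinearGroup.coe_mul, ← mulVec_mulVec, tv_inv, coe_tv, coe_tv,
      add_mulVec (1 : Matrix (Fin n) (Fin n) F) (vecMulVec ((-a) • ctr hn 0) (axis hn 0)),
      vecMulVec_mulVec, hy.1, add_mulVec, vecMulVec_mulVec]
    ext i; simp; ring
  have hφg : axis hn 0 ᵥ* (((tv hn a m * (tv hn a 0)⁻¹)⁻¹ : SpecialLinearGroup (Fin n) F) :
      Matrix (Fin n) (Fin n) F) = axis hn 0 := by
    rw [_root_.mul_inv_rev, inv_inv, tv_inv, Matrix.SpecialLinearGroup.coe_mul, coe_tv, coe_tv,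
      ← vecMul_vecMul]
    simp [vecMul_add, vecMul_vecMulVec, Matrix.vecMul_smul, Matrix.vecMul_neg,
      axis_dot_ctr, corner_zero hn hm0 hm, corner_zero hn (k := 0) le_rfl (by omega)]
  rw [conj_rankOne, hgx, hφg] at hc
  have h1 : InL hn a (y + (a * (axis hn m ⬝ᵥ y)) • ctr hn m) :=
    ⟨by simp [dotProduct_add, hy.1, axis_dot_ctr, corner_zero hn hm0 hm], hc⟩
  have := h1.add hn a (hy.neg hn a)
  rwa [add_neg_cancel_comm] at this

theorem InL.transvection_move (h4 : 4 ≤ n) {y : Fin n → F} (hy : InL hn a y) {k : ℤ}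
    (hk0 : 0 ≤ k + 2) (hk : k + 3 < n) :
    InL hn a ((a ^ 3 * (axis hn k ⬝ᵥ y)) • ctr hn (k + 2)) := by
  have hz := transvection_mem hn a h4 k
  set x := a ^ 3 • ctr (F := F) hn (k + 2) with hx
  have hψx : axis hn k ⬝ᵥ x = 0 := by
    rw [hx, dotProduct_smul, axis_dot_ctr, corner_zero hn (by omega) (by omega), smul_zero]
  have hφx : axis hn 0 ⬝ᵥ x = 0 := by
    rw [hx, dotProduct_smul, axis_dot_ctr, corner_zero hn (by omega) (by omega), smul_zero]
  have hbr := bracket_rankOne y (axis hn 0) x (axis hn k) hy.1 hψx hφx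
  have hinv : ∀ (z χ : Fin n → F), χ ⬝ᵥ z = 0 → (1 + vecMulVec z χ) ∈ matSet (grp hn a) →
      (1 - vecMulVec z χ) ∈ matSet (grp hn a) := by
    intro z χ hz hm
    refine left_inv_mem_matSet hm ?_
    rw [Matrix.mul_add, Matrix.mul_one, Matrix.sub_mul, Matrix.one_mul, vecMulVec_mul_vecMulVec, hz]
    ext i j; simp [vecMulVec]
  refine ⟨by rw [dotProduct_smul, axis_dot_ctr, corner_zero hn (by omega) (by omega), smul_zero], ?_⟩
  have := mul_mem_matSet (mul_mem_matSet (mul_mem_matSet hz hy.2) (hinv _ _ hψx hz))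
    (hinv _ _ hy.1 hy.2)
  rw [hbr] at this
  convert this using 2
  ext i j
  simp [vecMulVec, hx]; ring

theorem generated [Fintype F] (h4 : 4 ≤ n) {g : Fˣ} (hg : ∀ x : Fˣ, x ∈ Subgroup.zpowers g) :
    grp hn (g : F) = ⊤ := by
  classical
  set a : F := (g : F) with ha
  set ε : F := (-1) ^ (n - 1) with hε
  have hε2 : ε * ε = 1 := by rw [hε, ← mul_pow]; simp
  have hm1 : corner (F := F) hn (-1) = ε := by
    rw [corner_neg hn (s := 0) (by norm_num), zero_add, Nat.choose_self, Nat.cast_one, mul_one]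
  let S : ℤ → F → Prop := fun j z => InL hn a (z • ctr hn j)
  have hup : ∀ (j : ℤ) (z : F), 0 ≤ j → j + 2 < n → S j z → S (j + 1) (z * (a * ε)) := by
    intro j z h0 hj hz
    have := hz.ratio_move hn a (m := j + 1) (by omega) (by omega)
    rw [dotProduct_smul, axis_dot_ctr, show j - (j + 1) = -1 by ring, hm1, smul_eq_mul] at this
    show InL hn a _
    rwa [show z * (a * ε) = a * (z * ε) by ring]
  have hchain : ∀ (d : ℕ) (j : ℤ) (z : F), 0 ≤ j → j + d + 1 < n → S j z →
      S (j + d) (z * (a * ε) ^ d) := by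
    intro d
    induction d with
    | zero => intro j z _ _ hz; simpa using hz
    | succ d ih =>
      intro j z h0 hlt hz
      have := hup (j + d) _ (by omega) (by omega) (ih j z h0 (by omega) hz)
      rw [pow_succ, ← mul_assoc, Nat.cast_succ, ← add_assoc]
      exact this
  have hdown : ∀ (j k : ℤ) (z : F), j - k + 1 = n → 0 ≤ k + 2 → k + 3 < n → S j z →
      S (k + 2) (z * a ^ 3) := by
    intro j k z hjk h0 hk hz
    have := hz.transvection_move hn a h4 (k := k) h0 hk
    rw [dotProduct_smul, axis_dot_ctr, corner_one hn hjk, smul_eq_mul, mul_one] at this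
    show InL hn a _
    rwa [mul_comm]
  have hto1 : ∀ z, S ((n : ℤ) - 2) z → S 1 (z * a ^ 3) := fun z hz => by
    have := hdown ((n : ℤ) - 2) (-1) z (by omega) (by omega) (by omega) hz
    simpa using this
  have hto0 : ∀ z, S ((n : ℤ) - 3) z → S 0 (z * a ^ 3) := fun z hz => by
    have := hdown ((n : ℤ) - 3) (-2) z (by omega) (by omega) (by omega) hz
    simpa using this
  -- the multipliers of the scalars at the first centre
  let R : F → Prop := fun r => ∀ z, S 0 z → S 0 (z * r)
  have hR0 : R 0 := fun z _ => by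
    show InL hn a _
    simpa using InL.zero hn a
  have hR1 : R 1 := fun z hz => by simpa using hz
  have hRadd : ∀ r r', R r → R r' → R (r + r') := fun r r' h h' z hz => by
    show InL hn a _
    rw [mul_add, add_smul]; exact (h z hz).add hn a (h' z hz)
  have hRneg : ∀ r, R r → R (-r) := fun r h z hz => by
    show InL hn a _
    rw [mul_neg, neg_smul]; exact (h z hz).neg hn a
  have hRmul : ∀ r r', R r → R r' → R (r * r') := fun r r' h h' z hz => by
    rw [← mul_assoc]; exact h' _ (h z hz)
  have hRpow : ∀ r (k : ℕ), R r → R (r ^ k) := by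
    intro r k h
    induction k with
    | zero => simpa using hR1
    | succ k ih => rw [pow_succ]; exact hRmul _ _ ih h
  have hRnat : ∀ k : ℕ, R (k : F) := by
    intro k
    induction k with
    | zero => simpa using hR0
    | succ k ih => push_cast; exact hRadd _ _ ih hR1
  have hRinv : ∀ r, R r → R r⁻¹ := by
    intro r h
    rcases eq_or_ne r 0 with rfl | hr
    · simpa using hR0
    have h2 : 2 ≤ Fintype.card F := Fintype.one_lt_card
    have : r⁻¹ = r ^ (Fintype.card F - 2) := by
      refine inv_eq_of_mul_eq_one_right ?_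
      rw [← pow_succ', show Fintype.card F - 2 + 1 = Fintype.card F - 1 by omega]
      exact FiniteField.pow_card_sub_one_eq_one r hr
    rw [this]; exact hRpow _ _ h
  have hRε : R ε := hRpow _ _ (hRneg _ hR1)
  have hloop1 : R (a ^ n) := by
    have h1 : R ((a * ε) ^ (n - 3) * a ^ 3) := fun z hz => by
      have h := hchain (n - 3) 0 z le_rfl (by omega) hz
      rw [show (0 : ℤ) + ((n - 3 : ℕ) : ℤ) = (n : ℤ) - 3 by omega] at h
      rw [← mul_assoc]
      exact hto0 _ h
    have := hRmul _ _ h1 (hRpow _ (n - 3) hRε)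
    convert this using 1
    have h2 : a ^ n = a ^ (n - 3) * a ^ 3 := by rw [← pow_add]; congr 1; omega
    have h3 : (ε ^ (n - 3)) * ε ^ (n - 3) = 1 := by rw [← mul_pow, hε2, one_pow]
    rw [h2, mul_pow]
    linear_combination (-(a ^ (n - 3) * a ^ 3)) * h3
  obtain ⟨p, hchar⟩ := CharP.exists F
  have := hchar
  have hp : p.Prime := CharP.char_is_prime F p
  obtain ⟨e, n', hn', hne⟩ := Nat.exists_eq_pow_mul_and_not_dvd (show n ≠ 0 by omega) p hp.ne_one
  have hpe : R (a ^ p ^ e) := by
    rcases eq_or_ne n' 1 with rfl | h1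
    · rw [mul_one] at hne
      rw [← hne]; exact hloop1
    have hn'2 : 2 ≤ n' := by
      rcases n' with _ | _ | n'
      · simp at hn'
      · simp at h1
      · omega
    have hpe2 : 2 * p ^ e ≤ n := by rw [hne, mul_comm 2]; exact Nat.mul_le_mul_left _ hn'2
    have hs : p ^ e + 1 ≤ n - 2 := by
      rcases le_or_gt 3 (p ^ e) with h | h
      · omega
      rcases (show p ^ e = 1 ∨ p ^ e = 2 by have := pow_pos hp.pos e; omega) with h' | h'
      · omega
      · have : n' ≠ 2 := by
          rintro rfl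
          have : p ∣ p ^ e := dvd_pow_self p (fun h0 => by rw [h0] at h'; simp at h')
          rw [h', Nat.prime_dvd_prime_iff_eq hp Nat.prime_two] at this
          exact hn' (by rw [this])
        rw [h'] at hne
        omega
    set c : F := ((p ^ e + (n - 1)).choose (n - 1) : F) with hc
    have hc0 : c ≠ 0 := by
      intro h0
      rw [hc, CharP.cast_eq_zero_iff F p] at h0
      apply not_dvd_choose (e := e) hp hn'
      rw [show n' * p ^ e - 1 + p ^ e = p ^ e + (n - 1) by rw [hne, mul_comm]; omega,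
        Nat.choose_symm_add]
      exact h0
    have hjump : ∀ z, S 0 z → S ((p ^ e + 1 : ℕ) : ℤ) (z * (a * (ε * c))) := fun z hz => by
      have := hz.ratio_move hn a (m := ((p ^ e + 1 : ℕ) : ℤ)) (by omega) (by omega)
      rw [dotProduct_smul, axis_dot_ctr, corner_neg hn (s := p ^ e) (by push_cast; ring),
        smul_eq_mul, ← hc, ← hε] at this
      show InL hn a _
      rwa [show z * (a * (ε * c)) = a * (z * (ε * c)) by ring]
    have hcinv : R (c⁻¹) := hRinv _ (hc ▸ hRnat _)
    rcases Nat.lt_or_ge (p ^ e + 1) (n - 2) with hlt | hge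
    · set d := n - 3 - (p ^ e + 1) with hd
      have h2 : R (a * (ε * c) * (a * ε) ^ d * a ^ 3) := fun z hz => by
        have h := hchain d _ _ (by omega) (by omega) (hjump z hz)
        rw [show ((p ^ e + 1 : ℕ) : ℤ) + (d : ℤ) = (n : ℤ) - 3 by omega] at h
        simp only [← mul_assoc] at h ⊢
        exact hto0 _ h
      have h3 : R (a ^ (n - p ^ e)) := by
        have := hRmul _ _ (hRmul _ _ h2 (hRpow _ (d + 1) hRε)) hcinv
        convert this using 1
        have h3 : (ε ^ (d + 1)) * ε ^ (d + 1) = 1 := by rw [← mul_pow, hε2, one_pow]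
        rw [show n - p ^ e = 1 + d + 3 by omega, mul_pow]
        field_simp
        linear_combination (-(a ^ (1 + d + 3))) * h3
      have := hRmul _ _ hloop1 (hRinv _ h3)
      convert this using 1
      rw [eq_mul_inv_iff_mul_eq₀ (pow_ne_zero _ g.ne_zero), ← pow_add]
      congr 1; omega
    · have hpe3 : p ^ e + 3 = n := by omega
      have h2 : R (a * (ε * c) * a ^ 3 * (a * ε) ^ (n - 4) * a ^ 3) := fun z hz => by
        have h := hjump z hz
        rw [show ((p ^ e + 1 : ℕ) : ℤ) = (n : ℤ) - 2 by omega] at h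
        have h' := hchain (n - 4) 1 _ (by omega) (by omega) (hto1 _ h)
        rw [show (1 : ℤ) + ((n - 4 : ℕ) : ℤ) = (n : ℤ) - 3 by omega] at h'
        simp only [← mul_assoc] at h' ⊢
        exact hto0 _ h'
      have h3 : R (a ^ (n + 3)) := by
        have := hRmul _ _ (hRmul _ _ h2 (hRpow _ (n - 4 + 1) hRε)) hcinv
        convert this using 1
        have h3 : (ε ^ (n - 4 + 1)) * ε ^ (n - 4 + 1) = 1 := by rw [← mul_pow, hε2, one_pow]
        rw [show n + 3 = 1 + 3 + (n - 4) + 3 by omega, mul_pow]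
        field_simp
        linear_combination (-(a ^ (1 + 3 + (n - 4) + 3))) * h3
      have h5 : R (a ^ 3) := by
        have := hRmul _ _ h3 (hRinv _ hloop1)
        convert this using 1
        rw [eq_mul_inv_iff_mul_eq₀ (pow_ne_zero _ g.ne_zero), ← pow_add]
        congr 1; omega
      -- here `p ^ e` divides `3`
      have h6 : p ^ e ∣ 3 := by
        have h7 : p ^ e ∣ p ^ e + 3 := by rw [hpe3, hne]; exact dvd_mul_right _ _
        exact (Nat.dvd_add_right dvd_rfl).1 h7
      rcases (Nat.dvd_prime Nat.prime_three).1 h6 with h7 | h7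
      · rw [h7]
        -- `n = 4`
        have hn4 : n = 4 := by omega
        have := hRmul _ _ hloop1 (hRinv _ h5)
        convert this using 1
        rw [eq_mul_inv_iff_mul_eq₀ (pow_ne_zero _ g.ne_zero), ← pow_add]
        congr 1; omega
      · rw [h7]; exact h5
  have hRall : ∀ r, R r := by
    intro r
    rcases eq_or_ne r 0 with rfl | hr
    · exact hR0
    obtain ⟨y, hy⟩ : ∃ y : F, y ^ p ^ e = r := by
      have : Fact p.Prime := ⟨hp⟩
      have hsur : Function.Surjective fun y : F => y ^ p ^ e := by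
        refine Finite.surjective_of_injective fun y z h => ?_
        have : ExpChar F p := ExpChar.prime hp
        exact iterateFrobenius_inj F p e h
      exact hsur r
    have hy0 : y ≠ 0 := fun h => hr (by rw [← hy, h, zero_pow (pow_ne_zero _ hp.ne_zero)])
    obtain ⟨k, hk⟩ : ∃ k : ℕ, g ^ k = Units.mk0 y hy0 :=
      (Submonoid.mem_powers_iff _ _).1 (mem_powers_iff_mem_zpowers.2 (hg _))
    have : r = (a ^ p ^ e) ^ k := by
      rw [← pow_mul, mul_comm, pow_mul, ha, ← Units.val_pow_eq_pow_val, hk, Units.val_mk0, hy]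
    rw [this]; exact hRpow _ _ hpe
  -- all scalars at every centre
  obtain ⟨z₀, hz₀, hz₀0⟩ : ∃ z, S 0 z ∧ z ≠ 0 := by
    have hstart : S 2 (a ^ 3) := by
      refine ⟨by rw [dotProduct_smul, axis_dot_ctr, corner_zero hn (by omega) (by omega), smul_zero], ?_⟩
      simpa using transvection_mem hn a h4 0
    have h1 := hchain (n - 4) 2 _ (by omega) (by omega) hstart
    rw [show (2 : ℤ) + ((n - 4 : ℕ) : ℤ) = (n : ℤ) - 2 by omega] at h1
    have h2 := hchain (n - 4) 1 _ (by omega) (by omega) (hto1 _ h1)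
    rw [show (1 : ℤ) + ((n - 4 : ℕ) : ℤ) = (n : ℤ) - 3 by omega] at h2
    refine ⟨_, hto0 _ h2, ?_⟩
    have hε0 : ε ≠ 0 := fun h => by simp [h] at hε2
    simp [ha, hε0]
  have hall0 : ∀ z, S 0 z := fun z => by
    have := hRall (z / z₀) z₀ hz₀
    rwa [mul_div_cancel₀ _ hz₀0] at this
  have hallj : ∀ (j : ℕ), j + 1 < n → ∀ z, S j z := by
    intro j hj z
    have hne : (a * ε) ^ j ≠ 0 :=
      pow_ne_zero _ (mul_ne_zero g.ne_zero fun h => by simp [h] at hε2)
    have := hchain j 0 (z / (a * ε) ^ j) le_rfl (by omega) (hall0 _)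
    rwa [zero_add, div_mul_cancel₀ _ hne] at this
  -- the centres span the axis
  let L : Submodule F (Fin n → F) :=
    { carrier := {x | ∀ z : F, InL hn a (z • x)}
      add_mem' := fun {x y} hx hy z => by rw [smul_add]; exact (hx z).add hn a (hy z)
      zero_mem' := fun z => by rw [smul_zero]; exact InL.zero hn a
      smul_mem' := fun c x hx z => by rw [smul_smul]; exact hx _ }
  let W : ℕ → Submodule F (Fin n → F) := fun j =>
    Submodule.span F ((fun i : ℕ => ctr hn (i : ℤ)) '' {i | i ≤ j})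
  have hW : ∀ j : ℕ, j + 1 < n → W j ≤ L := fun j hj => Submodule.span_le.2 (by
    rintro _ ⟨i, hi, rfl⟩
    intro z
    exact hallj i (by simp at hi; omega) z)
  have hsingle : ∀ j : ℕ, (hj : j < n) →
      Pi.single (⟨n - 1 - j, by omega⟩ : Fin n) (1 : F) ∈ W j := by
    intro j
    induction j with
    | zero =>
      intro hj
      refine Submodule.subset_span ⟨0, by simp, ?_⟩
      funext r
      simp [ctr, last, Matrix.one_apply, Pi.single_apply]
    | succ j ih =>
      intro hj
      have hUW : ∀ x ∈ W j, U n F *ᵥ x ∈ W (j + 1) := by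
        intro x hx
        induction hx using Submodule.span_induction with
        | mem x hx =>
          obtain ⟨i, hi, rfl⟩ := hx
          refine Submodule.subset_span ⟨i + 1, by simp at hi ⊢; omega, ?_⟩
          show ctr hn ((i + 1 : ℕ) : ℤ) = _
          simp only [ctr]
          rw [Nat.cast_succ, _root_.zpow_add_one, ← (Commute.self_zpow ju (i : ℤ)).eq,
            Matrix.SpecialLinearGroup.coe_mul, ← mulVec_mulVec]
          rfl
        | zero => rw [mulVec_zero]; exact zero_mem _
        | add x y _ _ hx hy => rw [mulVec_add]; exact add_mem hx hy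
        | smul c x _ hx => rw [mulVec_smul]; exact Submodule.smul_mem _ c hx
      have hmono : W j ≤ W (j + 1) :=
        Submodule.span_mono (Set.image_mono fun i (hi : i ≤ j) => show i ≤ j + 1 by omega)
      have hi := ih (by omega)
      have := Submodule.sub_mem _ (hUW _ hi) (hmono hi)
      convert this using 1
      funext r
      rw [Pi.sub_apply, Matrix.mulVec_single]
      simp only [Pi.single_apply, Pi.smul_apply, Matrix.col_apply, U_apply,
        MulOpposite.smul_eq_mul_unop, MulOpposite.unop_op, mul_one, Fin.ext_iff]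
      by_cases h1 : (r : ℕ) = n - 1 - (j + 1)
      · rw [if_pos h1, if_pos (Or.inr (by omega)), if_neg (by omega), sub_zero]
      · rw [if_neg h1]
        by_cases h2 : (r : ℕ) = n - 1 - j
        · rw [if_pos (Or.inl h2), if_pos h2, sub_self]
        · rw [if_neg (by omega), if_neg h2, sub_zero]
  have haxis0 : axis (F := F) hn 0 = Pi.single (first hn) 1 := by
    simp [axis]
  have hfull : ∀ x : Fin n → F, axis hn 0 ⬝ᵥ x = 0 → InL hn a x := by
    intro x hx
    have hmem : x ∈ L := by
      rw [← Finset.univ_sum_single x]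
      refine Submodule.sum_mem _ fun i _ => ?_
      rcases eq_or_ne i (first hn) with rfl | hi
      · rw [haxis0, single_dotProduct, one_mul] at hx
        rw [hx, Pi.single_zero]; exact zero_mem _
      · have hi0 : (i : ℕ) ≠ 0 := fun h => hi (Fin.ext h)
        have h1 := hW (n - 1 - i) (by omega) (hsingle (n - 1 - i) (by omega))
        have hidx : (⟨n - 1 - (n - 1 - (i : ℕ)), by omega⟩ : Fin n) = i :=
          Fin.ext (by have := i.isLt; simp only; omega)
        rw [hidx] at h1
        have := Submodule.smul_mem _ (x i) h1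
        rwa [← Pi.single_smul, smul_eq_mul, mul_one] at this
    simpa using hmem 1
  -- conjugate the axis
  set P : Matrix (Fin n) (Fin n) F := Matrix.of fun j => axis hn (-((j : ℕ) : ℤ)) with hP
  have hProw : ∀ j : Fin n, P j = Pi.single (first hn) 1 ᵥ* U n F ^ (j : ℕ) := by
    intro j
    show axis hn _ = _
    rw [axis, neg_neg, zpow_natCast, Matrix.SpecialLinearGroup.coe_pow]
    rfl
  have hPdet : P.det ≠ 0 := by
    rw [Matrix.det_of_isLowerTriangular]
    · refine Finset.prod_ne_zero_iff.2 fun j _ => ?_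
      rw [hProw, Matrix.single_one_vecMul, Matrix.row_apply,
        (U_pow_apply (F := F) (j : ℕ) (first hn) j).2 (by simp [first])]
      exact one_ne_zero
    · intro i j h
      have h' : (i : ℕ) < j := h
      show P i j = 0
      rw [hProw, Matrix.single_one_vecMul, Matrix.row_apply]
      exact (U_pow_apply (F := F) (i : ℕ) (first hn) j).1 (Or.inr (by simp [first]; omega))
  have hrow : ∀ (j : Fin n) (x : Fin n → F), P j ⬝ᵥ x = 0 →
      1 + vecMulVec x (P j) ∈ matSet (grp hn a) := by
    intro j x hx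
    have hz : axis hn 0 ⬝ᵥ (((ju ^ (j : ℕ) : SpecialLinearGroup (Fin n) F) : Matrix _ _ F) *ᵥ x) = 0 := by
      rw [dotProduct_mulVec, haxis0, Matrix.SpecialLinearGroup.coe_pow]
      rw [hProw] at hx
      exact hx
    have := conj_mem_matSet (hfull _ hz).2 (inv_mem (pow_mem (ju_mem hn a) (j : ℕ)))
    rw [conj_rankOne, inv_inv, mulVec_mulVec, ← Matrix.SpecialLinearGroup.coe_mul, inv_mul_cancel,
      haxis0] at this
    rw [hProw]
    rw [Matrix.SpecialLinearGroup.coe_one, one_mulVec, Matrix.SpecialLinearGroup.coe_pow] at this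
    exact this
  have hPi : IsUnit P.det := isUnit_iff_ne_zero.2 hPdet
  have hP1 : P * P⁻¹ = 1 := Matrix.mul_nonsing_inv P hPi
  have hP2 : P⁻¹ * P = 1 := Matrix.nonsing_inv_mul P hPi
  have hconj : ∀ A : SpecialLinearGroup (Fin n) F,
      P⁻¹ * (A : Matrix (Fin n) (Fin n) F) * P ∈ matSet (grp hn a) := by
    intro A
    induction A using CfsgLib.ClassicalLinear.transvection_induction with
    | one => exact ⟨1, one_mem _, by simp [hP2]⟩
    | transvec i j hij c =>
      have h1 : Matrix.transvection i j c = 1 + vecMulVec (Pi.single i c) (Pi.single j 1) := by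
        rw [Matrix.transvection, vecMulVec_single]
      change P⁻¹ * Matrix.transvection i j c * P ∈ matSet (grp hn a)
      rw [h1, Matrix.mul_add, Matrix.mul_one, Matrix.add_mul, hP2, mul_vecMulVec, vecMulVec_mul,
        Matrix.single_one_vecMul]
      refine hrow j _ ?_
      have h2 : P *ᵥ (P⁻¹ *ᵥ Pi.single i c) = Pi.single i c := by
        rw [mulVec_mulVec, hP1, one_mulVec]
      have h3 := congrFun h2 j
      rw [Pi.single_apply, if_neg hij.symm] at h3
      exact h3
    | mul A B hA hB =>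
      have := mul_mem_matSet hA hB
      convert this using 1
      change P⁻¹ * ((A : Matrix (Fin n) (Fin n) F) * (B : Matrix (Fin n) (Fin n) F)) * P = _
      simp only [Matrix.mul_assoc]
      rw [← Matrix.mul_assoc P P⁻¹, hP1, Matrix.one_mul]
  rw [eq_top_iff]
  intro B _
  have hdet : (P * (B : Matrix (Fin n) (Fin n) F) * P⁻¹).det = 1 := by
    rw [det_mul, det_mul, B.2, mul_one, ← det_mul, hP1, det_one]
  obtain ⟨b, hb, hbB⟩ := hconj ⟨_, hdet⟩
  have : b = B := by
    apply Subtype.ext
    change (b : Matrix (Fin n) (Fin n) F) = B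
    rw [show (b : Matrix (Fin n) (Fin n) F) = _ from hbB]
    change P⁻¹ * (P * (B : Matrix (Fin n) (Fin n) F) * P⁻¹) * P = B
    rw [show P⁻¹ * (P * (B : Matrix (Fin n) (Fin n) F) * P⁻¹) * P =
      (P⁻¹ * P) * (B : Matrix (Fin n) (Fin n) F) * (P⁻¹ * P) by simp only [Matrix.mul_assoc],
      hP2, Matrix.one_mul, Matrix.mul_one]
  exact this ▸ hb

end Setup

theorem exists_pair [Fintype F] (n : ℕ) (h4 : 4 ≤ n) :
    ∃ u g : SpecialLinearGroup (Fin n) F,
      (IsNilpotent ((u : Matrix (Fin n) (Fin n) F) - 1) ∧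
        ((u : Matrix (Fin n) (Fin n) F) - 1) ^ (n - 1) ≠ 0) ∧
      (IsNilpotent (((g * u * g⁻¹ : SpecialLinearGroup (Fin n) F) : Matrix (Fin n) (Fin n) F) - 1) ∧
        (((g * u * g⁻¹ : SpecialLinearGroup (Fin n) F) : Matrix (Fin n) (Fin n) F) - 1) ^ (n - 1) ≠ 0) ∧
      Subgroup.closure ({u, g * u * g⁻¹} : Set (SpecialLinearGroup (Fin n) F)) = ⊤ := by
  classical
  have hn : 2 ≤ n := by omega
  obtain ⟨θ, hθ⟩ := IsCyclic.exists_generator (α := Fˣ)
  set g := SpecialLinearGroup.transvection (last_ne_first hn) (θ : F)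
  have hreg : IsNilpotent (U n F - 1) ∧ (U n F - 1) ^ (n - 1) ≠ 0 := by
    refine ⟨U_sub_one_nilpotent, fun h => ?_⟩
    have := congrFun (congrFun h (first hn)) (last hn)
    simp [N_pow_apply, first, last] at this
  refine ⟨ju, g, hreg, ?_, generated hn h4 hθ⟩
  set A : Matrix (Fin n) (Fin n) F := (g : Matrix (Fin n) (Fin n) F)
  set B : Matrix (Fin n) (Fin n) F := ((g⁻¹ : SpecialLinearGroup (Fin n) F) : Matrix (Fin n) (Fin n) F)
  have hAB : A * B = 1 := by rw [← Matrix.SpecialLinearGroup.coe_mul, mul_inv_cancel]; rfl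
  have hBA : B * A = 1 := mul_eq_one_comm.1 hAB
  have hc : ((g * ju * g⁻¹ : SpecialLinearGroup (Fin n) F) : Matrix (Fin n) (Fin n) F) - 1 =
      A * (U n F - 1) * B := by
    rw [Matrix.SpecialLinearGroup.coe_mul, Matrix.SpecialLinearGroup.coe_mul, Matrix.mul_sub,
      Matrix.sub_mul, Matrix.mul_one, hAB]
    rfl
  have hpow : ∀ k : ℕ, (A * (U n F - 1) * B) ^ k = A * (U n F - 1) ^ k * B := by
    intro k
    induction k with
    | zero => simp [hAB]
    | succ k ih =>
      rw [pow_succ, ih, pow_succ]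
      simp only [Matrix.mul_assoc]
      rw [← Matrix.mul_assoc B A, hBA, Matrix.one_mul]
  rw [hc]
  refine ⟨?_, fun h => hreg.2 ?_⟩
  · obtain ⟨k, hk⟩ := hreg.1
    exact ⟨k, by rw [hpow, hk, Matrix.mul_zero, Matrix.zero_mul]⟩
  · rw [hpow] at h
    have := congrArg (fun X => B * X * A) h
    simp only [Matrix.mul_assoc, Matrix.mul_zero, Matrix.zero_mul, hBA, Matrix.mul_one] at this
    rwa [← Matrix.mul_assoc, hBA, Matrix.one_mul] at this

end CfsgLib.Generators.RegularPair
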