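/-
`SL_3(q)` is generated by two conjugate regular unipotents: criteria, and the generic family of pairs.
-/
import Mathlib
import Cfsg.Agent.Lib.InvCentralizers.RegularGen
import Cfsg.Agent.Lib.ClassicalLinear.Generation

set_option autoImplicit false
set_option linter.unusedSectionVars false

open Matrix CfsgLib.InvCentralizers.RegularGen

namespace CfsgLib.Generators.RegularPairThree

variable {F : Type*} [Field F]

/-- An upper unitriangular matrix. -/
def unitri (x y z : F) : SpecialLinearGroup (Fin 3) F :=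
  ⟨!![1, x, z; 0, 1, y; 0, 0, 1], by simp [Matrix.det_fin_three]⟩

theorem coe_unitri (x y z : F) :
    (unitri x y z : Matrix (Fin 3) (Fin 3) F) = !![1, x, z; 0, 1, y; 0, 0, 1] := rfl

theorem unitri_mul (x y z x' y' z' : F) :
    unitri x y z * unitri x' y' z' = unitri (x + x') (y + y') (z + z' + x * y') := by
  apply Subtype.ext
  rw [Matrix.SpecialLinearGroup.coe_mul, coe_unitri, coe_unitri, coe_unitri, Matrix.mul_fin_three]
  ext i j
  fin_cases i <;> fin_cases j <;> simp <;> ring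

theorem unitri_zero : unitri (0 : F) 0 0 = 1 := by
  apply Subtype.ext
  ext i j
  fin_cases i <;> fin_cases j <;> simp [coe_unitri]

theorem unitri_inv (x y z : F) : (unitri x y z)⁻¹ = unitri (-x) (-y) (x * y - z) := by
  refine inv_eq_of_mul_eq_one_right ?_
  rw [unitri_mul, ← unitri_zero]
  congr 1 <;> ring

variable (K : Subgroup (SpecialLinearGroup (Fin 3) F))

/-- The superdiagonals of the upper unitriangular elements of `K`. -/
def superdiag : AddSubgroup (F × F) where
  carrier := {p | ∃ z, unitri p.1 p.2 z ∈ K}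
  zero_mem' := ⟨0, by simpa [unitri_zero] using one_mem K⟩
  add_mem' := by
    rintro p q ⟨z, hz⟩ ⟨z', hz'⟩
    exact ⟨_, by simpa [unitri_mul] using mul_mem hz hz'⟩
  neg_mem' := by
    rintro p ⟨z, hz⟩
    exact ⟨_, by simpa [unitri_inv] using inv_mem hz⟩

/-- If the superdiagonals of `K` are everything, `K` contains the whole unitriangular group. -/
theorem unitri_mem (h : ∀ p : F × F, p ∈ superdiag K) (x y z : F) : unitri x y z ∈ K := by
  have hz : ∀ c : F, unitri 0 0 c ∈ K := by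
    intro c
    obtain ⟨a, ha⟩ := h (1, 0)
    obtain ⟨b, hb⟩ := h (0, c)
    have hab := mul_mem (mul_mem ha hb) (inv_mem (mul_mem hb ha))
    rw [unitri_mul, unitri_mul, unitri_inv, unitri_mul] at hab
    convert hab using 2 <;> ring
  obtain ⟨z', hz'⟩ := h (x, y)
  have := mul_mem hz' (hz (z - z'))
  rw [unitri_mul] at this
  convert this using 2 <;> simp

/-- Containing the unitriangular group and three independent translates of its axis gives
everything. -/
theorem eq_top_of_unitri_mem (hU : ∀ x y z : F, unitri x y z ∈ K)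
    {k₁ k₂ : SpecialLinearGroup (Fin 3) F} (h₁ : k₁ ∈ K) (h₂ : k₂ ∈ K)
    (hdet : (k₁ : Matrix (Fin 3) (Fin 3) F) 2 0 * (k₂ : Matrix (Fin 3) (Fin 3) F) 2 1 -
      (k₁ : Matrix (Fin 3) (Fin 3) F) 2 1 * (k₂ : Matrix (Fin 3) (Fin 3) F) 2 0 ≠ 0) : K = ⊤ := by
  set k : Fin 3 → SpecialLinearGroup (Fin 3) F := ![1, k₁, k₂] with hk
  have hkK : ∀ j, k j ∈ K := fun j => by fin_cases j <;> simp [hk, h₁, h₂]
  set φ : Fin 3 → F := Pi.single 2 1 with hφ
  set P : Matrix (Fin 3) (Fin 3) F :=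
    Matrix.of fun j => φ ᵥ* (k j : Matrix (Fin 3) (Fin 3) F) with hP
  have hPdet : P.det ≠ 0 := by
    have : P.det = (k₁ : Matrix (Fin 3) (Fin 3) F) 2 0 * (k₂ : Matrix (Fin 3) (Fin 3) F) 2 1 -
        (k₁ : Matrix (Fin 3) (Fin 3) F) 2 1 * (k₂ : Matrix (Fin 3) (Fin 3) F) 2 0 := by
      rw [Matrix.det_fin_three]
      simp [hP, hk, hφ, Matrix.vecMul_one, Matrix.single_one_vecMul, Pi.single_apply]
    rwa [this]
  have hfull : ∀ x : Fin 3 → F, φ ⬝ᵥ x = 0 → 1 + vecMulVec x φ ∈ matSet K := by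
    intro x hx
    rw [hφ, single_dotProduct, one_mul] at hx
    refine ⟨unitri 0 (x 1) (x 0), hU _ _ _, ?_⟩
    ext i j
    fin_cases i <;> fin_cases j <;> simp [coe_unitri, hφ, vecMulVec_apply, hx]
  have hrow : ∀ (j : Fin 3) (x : Fin 3 → F), P j ⬝ᵥ x = 0 → 1 + vecMulVec x (P j) ∈ matSet K := by
    intro j x hx
    have hPj : P j = φ ᵥ* (k j : Matrix (Fin 3) (Fin 3) F) := rfl
    have hz : φ ⬝ᵥ ((k j : Matrix (Fin 3) (Fin 3) F) *ᵥ x) = 0 := by
      rw [dotProduct_mulVec, ← hPj, hx]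
    have := conj_mem_matSet (hfull _ hz) (inv_mem (hkK j))
    rw [conj_rankOne, inv_inv, mulVec_mulVec, ← Matrix.SpecialLinearGroup.coe_mul, inv_mul_cancel,
      Matrix.SpecialLinearGroup.coe_one, one_mulVec, ← hPj] at this
    exact this
  have hPi : IsUnit P.det := isUnit_iff_ne_zero.2 hPdet
  have hP1 : P * P⁻¹ = 1 := Matrix.mul_nonsing_inv P hPi
  have hP2 : P⁻¹ * P = 1 := Matrix.nonsing_inv_mul P hPi
  have hconj : ∀ A : SpecialLinearGroup (Fin 3) F,
      P⁻¹ * (A : Matrix (Fin 3) (Fin 3) F) * P ∈ matSet K := by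
    intro A
    induction A using CfsgLib.ClassicalLinear.transvection_induction with
    | one => exact ⟨1, one_mem _, by simp [hP2]⟩
    | transvec i j hij c =>
      have h1 : Matrix.transvection i j c = 1 + vecMulVec (Pi.single i c) (Pi.single j 1) := by
        rw [Matrix.transvection, vecMulVec_single]
      change P⁻¹ * Matrix.transvection i j c * P ∈ matSet K
      rw [h1, Matrix.mul_add, Matrix.mul_one, Matrix.add_mul, hP2, mul_vecMulVec, vecMulVec_mul,
        Matrix.single_one_vecMul]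
      refine hrow j _ ?_
      have h2 : P *ᵥ (P⁻¹ *ᵥ Pi.single i c) = Pi.single i c := by
        rw [mulVec_mulVec, hP1, one_mulVec]
      have h3 := congrFun h2 j
      rw [Pi.single_apply, if_neg hij.symm] at h3
      exact h3
    | mul A B hA hB =>
      have := mul_mem_matSet hA hB
      convert this using 1
      change P⁻¹ * ((A : Matrix (Fin 3) (Fin 3) F) * (B : Matrix (Fin 3) (Fin 3) F)) * P = _
      simp only [Matrix.mul_assoc]
      rw [← Matrix.mul_assoc P P⁻¹, hP1, Matrix.one_mul]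
  rw [eq_top_iff]
  intro B _
  have hdet : (P * (B : Matrix (Fin 3) (Fin 3) F) * P⁻¹).det = 1 := by
    rw [det_mul, det_mul, B.2, mul_one, ← det_mul, hP1, det_one]
  obtain ⟨b, hb, hbB⟩ := hconj ⟨_, hdet⟩
  have : b = B := by
    apply Subtype.ext
    change (b : Matrix (Fin 3) (Fin 3) F) = B
    rw [show (b : Matrix (Fin 3) (Fin 3) F) = _ from hbB]
    change P⁻¹ * (P * (B : Matrix (Fin 3) (Fin 3) F) * P⁻¹) * P = B
    rw [show P⁻¹ * (P * (B : Matrix (Fin 3) (Fin 3) F) * P⁻¹) * P =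
      (P⁻¹ * P) * (B : Matrix (Fin 3) (Fin 3) F) * (P⁻¹ * P) by simp only [Matrix.mul_assoc],
      hP2, Matrix.one_mul, Matrix.mul_one]
  exact this ▸ hb

theorem regular_unitri_one_one : IsNilpotent ((unitri (1 : F) 1 0 : Matrix (Fin 3) (Fin 3) F) - 1) ∧
    ((unitri (1 : F) 1 0 : Matrix (Fin 3) (Fin 3) F) - 1) ^ (3 - 1) ≠ 0 := by
  have h1 : (unitri (1 : F) 1 0 : Matrix (Fin 3) (Fin 3) F) - 1 = !![0, 1, 0; 0, 0, 1; 0, 0, 0] := by
    ext i j; fin_cases i <;> fin_cases j <;> simp [coe_unitri]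
  have h2 : ((unitri (1 : F) 1 0 : Matrix (Fin 3) (Fin 3) F) - 1) ^ 2 =
      !![0, 0, 1; 0, 0, 0; 0, 0, 0] := by
    rw [h1, pow_two, Matrix.mul_fin_three]
    simp
  refine ⟨⟨3, ?_⟩, fun h => ?_⟩
  · rw [pow_succ, h2, h1, Matrix.mul_fin_three]
    ext i j; fin_cases i <;> fin_cases j <;> simp
  · have := congrFun (congrFun (h2.symm.trans h) 0) 2
    simp at this

/-- Conjugation by an upper triangular element scales the superdiagonal. -/
theorem superdiag_scale {w : SpecialLinearGroup (Fin 3) F} (hw : w ∈ K)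
    (h10 : (w : Matrix (Fin 3) (Fin 3) F) 1 0 = 0) (h20 : (w : Matrix (Fin 3) (Fin 3) F) 2 0 = 0)
    (h21 : (w : Matrix (Fin 3) (Fin 3) F) 2 1 = 0) {p : F × F} (hp : p ∈ superdiag K) :
    ((w : Matrix (Fin 3) (Fin 3) F) 0 0 / (w : Matrix (Fin 3) (Fin 3) F) 1 1,
      (w : Matrix (Fin 3) (Fin 3) F) 1 1 / (w : Matrix (Fin 3) (Fin 3) F) 2 2) * p ∈
      superdiag K := by
  obtain ⟨z, hz⟩ := hp
  set W : Matrix (Fin 3) (Fin 3) F := (w : Matrix (Fin 3) (Fin 3) F) with hW
  have hdet : W 0 0 * W 1 1 * W 2 2 = 1 := by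
    have := w.2
    rw [Matrix.det_fin_three] at this
    rw [← hW] at this
    simpa [h10, h20, h21] using this
  have hd1 : W 1 1 ≠ 0 := fun h => by simp [h] at hdet
  have hd2 : W 2 2 ≠ 0 := fun h => by simp [h] at hdet
  set x' := W 0 0 / W 1 1 * p.1 with hx'
  set y' := W 1 1 / W 2 2 * p.2 with hy'
  refine ⟨(W 0 0 * z + W 0 1 * p.2 - x' * W 1 2) / W 2 2, ?_⟩
  have e : unitri x' y' ((W 0 0 * z + W 0 1 * p.2 - x' * W 1 2) / W 2 2) =
      w * unitri p.1 p.2 z * w⁻¹ := by
    rw [eq_mul_inv_iff_mul_eq]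
    apply Subtype.ext
    rw [Matrix.SpecialLinearGroup.coe_mul, Matrix.SpecialLinearGroup.coe_mul, coe_unitri, coe_unitri,
      ← hW, Matrix.eta_fin_three W, Matrix.mul_fin_three, Matrix.mul_fin_three, h10, h20, h21, hx',
      hy']
    ext i j
    fin_cases i <;> fin_cases j <;> simp <;> field_simp <;> ring
  simp only [Prod.fst_mul, Prod.snd_mul]
  rw [← hx', ← hy', e]
  exact mul_mem (mul_mem hw hz) (inv_mem hw)

/-- The scalings preserving the superdiagonals. -/
def scalings : Subring (F × F) where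
  carrier := {r | ∀ p ∈ superdiag K, r * p ∈ superdiag K}
  zero_mem' := fun p _ => by rw [zero_mul]; exact zero_mem _
  one_mem' := fun p hp => by rwa [one_mul]
  add_mem' := fun ha hb p hp => by rw [add_mul]; exact add_mem (ha p hp) (hb p hp)
  neg_mem' := fun ha p hp => by rw [neg_mul]; exact neg_mem (ha p hp)
  mul_mem' := fun ha hb p hp => by rw [mul_assoc]; exact ha _ (hb p hp)

end CfsgLib.Generators.RegularPairThree
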