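/-
Certificates for generating `SL_3(q)` by two conjugate regular unipotents when `q` is small.
-/
import Mathlib
import Cfsg.Agent.Lib.Generators.RegularPairThree

set_option autoImplicit false
set_option linter.unusedSectionVars false

open Matrix CfsgLib.InvCentralizers.RegularGen

namespace CfsgLib.Generators.RegularPairThree

/-- A three by three matrix with explicit entries, for computations. -/
structure M3 (R : Type*) where
  a00 : R
  a01 : R
  a02 : R
  a10 : R
  a11 : R
  a12 : R
  a20 : R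
  a21 : R
  a22 : R
  deriving DecidableEq

variable {R : Type*} [Add R] [Mul R] [Zero R] [One R]

/-- The product. -/
def M3.mm (A B : M3 R) : M3 R :=
  ⟨A.a00 * B.a00 + A.a01 * B.a10 + A.a02 * B.a20, A.a00 * B.a01 + A.a01 * B.a11 + A.a02 * B.a21,
    A.a00 * B.a02 + A.a01 * B.a12 + A.a02 * B.a22,
    A.a10 * B.a00 + A.a11 * B.a10 + A.a12 * B.a20, A.a10 * B.a01 + A.a11 * B.a11 + A.a12 * B.a21,
    A.a10 * B.a02 + A.a11 * B.a12 + A.a12 * B.a22,
    A.a20 * B.a00 + A.a21 * B.a10 + A.a22 * B.a20, A.a20 * B.a01 + A.a21 * B.a11 + A.a22 * B.a21,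
    A.a20 * B.a02 + A.a21 * B.a12 + A.a22 * B.a22⟩

/-- The identity. -/
def M3.id3 : M3 R := ⟨1, 0, 0, 0, 1, 0, 0, 0, 1⟩

/-- The Jordan block. -/
def M3.jb : M3 R := ⟨1, 1, 0, 0, 1, 1, 0, 0, 1⟩

/-- The positive terms of the determinant. -/
def M3.pos (A : M3 R) : R :=
  A.a00 * A.a11 * A.a22 + A.a01 * A.a12 * A.a20 + A.a02 * A.a10 * A.a21

/-- The negative terms of the determinant. -/
def M3.negTerms (A : M3 R) : R :=
  A.a00 * A.a12 * A.a21 + A.a01 * A.a10 * A.a22 + A.a02 * A.a11 * A.a20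

/-- Upper unitriangular shape. -/
def M3.IsUni (A : M3 R) : Prop :=
  A.a00 = 1 ∧ A.a10 = 0 ∧ A.a20 = 0 ∧ A.a11 = 1 ∧ A.a21 = 0 ∧ A.a22 = 1

instance [DecidableEq R] (A : M3 R) : Decidable A.IsUni := by
  unfold M3.IsUni; infer_instance

/-- Verification of a word together with its partial products. -/
def chk [DecidableEq R] (G : Fin 4 → M3 R) : M3 R → List (Fin 4 × M3 R) → Bool
  | _, [] => true
  | A, (k, B) :: t => decide (A.mm (G k) = B) && chk G B t

/-- The value of a verified word. -/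
def val : M3 R → List (Fin 4 × M3 R) → M3 R
  | A, [] => A
  | _, (_, B) :: t => val B t

/-- Repeated addition of pairs. -/
def rep (s : R × R) : ℕ → R × R → R × R
  | 0, a => a
  | n + 1, a => let b := rep s n a; (b.1 + s.1, b.2 + s.2)

/-- All sums of multiples of the listed pairs. -/
def sums (p : ℕ) : List (R × R) → List (R × R)
  | [] => [(0, 0)]
  | s :: t => (sums p t).flatMap fun a => (List.range p).map fun n => rep s n a

/-- The data of a small pair of generators. -/
structure Cert (R : Type*) where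
  char : ℕ
  g : M3 R
  v : M3 R
  uI : M3 R
  vI : M3 R
  words : List (List (Fin 4 × M3 R))

/-- The two generators and their inverses. -/
def Cert.gens (C : Cert R) : Fin 4 → M3 R := ![M3.jb, C.v, C.uI, C.vI]

/-- The superdiagonals of the words. -/
def Cert.diags (C : Cert R) : List (R × R) :=
  C.words.map fun l => ((val M3.id3 l).a01, (val M3.id3 l).a12)

/-- The conditions on a certificate. -/
def Cert.Valid [DecidableEq R] (C : Cert R) : Prop :=
  C.g.pos = 1 + C.g.negTerms ∧ C.v.mm C.g = C.g.mm M3.jb ∧ M3.jb.mm C.uI = M3.id3 ∧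
    C.v.mm C.vI = M3.id3 ∧
    (∀ l ∈ C.words, chk C.gens M3.id3 l = true ∧ (val M3.id3 l).IsUni) ∧
    (∀ a : R, (a, (0 : R)) ∈ sums C.char C.diags ∧ ((0 : R), a) ∈ sums C.char C.diags) ∧
    C.v.a20 * (C.v.mm C.v).a21 ≠ C.v.a21 * (C.v.mm C.v).a20

instance [DecidableEq R] [Fintype R] (C : Cert R) : Decidable C.Valid := by
  unfold Cert.Valid; infer_instance

section Soundness

variable {F : Type*} [Field F] (φ : R → F)

/-- The matrix of an entry tuple. -/
def M3.toMat (A : M3 R) : Matrix (Fin 3) (Fin 3) F :=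
  !![φ A.a00, φ A.a01, φ A.a02; φ A.a10, φ A.a11, φ A.a12; φ A.a20, φ A.a21, φ A.a22]

theorem exists_pair_of_cert [DecidableEq R] [Fintype R] [Fintype F]
    (hadd : ∀ a b, φ (a + b) = φ a + φ b) (hmul : ∀ a b, φ (a * b) = φ a * φ b)
    (h0 : φ 0 = 0) (h1 : φ 1 = 1) (hinj : Function.Injective φ)
    (hcard : Fintype.card R = Fintype.card F) (C : Cert R) (hC : C.Valid) :
    ∃ u g : SpecialLinearGroup (Fin 3) F,
      IsNilpotent ((u : Matrix (Fin 3) (Fin 3) F) - 1) ∧
        ((u : Matrix (Fin 3) (Fin 3) F) - 1) ^ (3 - 1) ≠ 0 ∧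
        Subgroup.closure ({u, g * u * g⁻¹} : Set (SpecialLinearGroup (Fin 3) F)) = ⊤ := by
  obtain ⟨cg, cv, cu, cvi, cw, cs, cr⟩ := hC
  have hmm : ∀ A B : M3 R, (A.mm B).toMat φ = A.toMat φ * B.toMat φ := by
    intro A B
    simp only [M3.mm, M3.toMat, Matrix.mul_fin_three, hadd, hmul]
  have hid : (M3.id3 : M3 R).toMat φ = 1 := by
    simp only [M3.id3, M3.toMat, h0, h1]
    exact Matrix.one_fin_three.symm
  have hjb : (M3.jb : M3 R).toMat φ = (unitri (1 : F) 1 0 : Matrix (Fin 3) (Fin 3) F) := by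
    simp only [M3.jb, M3.toMat, h0, h1, coe_unitri]
  have hg : (C.g.toMat φ).det = 1 := by
    have := congrArg φ cg
    simp only [M3.pos, M3.negTerms, hadd, hmul, h1] at this
    rw [Matrix.det_fin_three]
    simp [M3.toMat]
    linear_combination this
  set u : SpecialLinearGroup (Fin 3) F := unitri 1 1 0 with hu
  set g : SpecialLinearGroup (Fin 3) F := ⟨C.g.toMat φ, hg⟩ with hgdef
  set v := g * u * g⁻¹ with hv
  have hvM : (v : Matrix (Fin 3) (Fin 3) F) = C.v.toMat φ := by
    have h2 : (v : Matrix (Fin 3) (Fin 3) F) * C.g.toMat φ = C.v.toMat φ * C.g.toMat φ := by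
      rw [← hmm, cv, hmm, hjb]
      change ((v * g : SpecialLinearGroup (Fin 3) F) : Matrix (Fin 3) (Fin 3) F) = _
      rw [hv, inv_mul_cancel_right]
      rfl
    have hu' : IsUnit (C.g.toMat φ).det := by rw [hg]; exact isUnit_one
    have := congrArg (fun M => M * (C.g.toMat φ)⁻¹) h2
    simpa [Matrix.mul_assoc, Matrix.mul_nonsing_inv _ hu'] using this
  set K := Subgroup.closure ({u, v} : Set (SpecialLinearGroup (Fin 3) F)) with hK
  have huK : u ∈ K := Subgroup.subset_closure (Set.mem_insert _ _)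
  have hvK : v ∈ K := Subgroup.subset_closure (Set.mem_insert_of_mem _ rfl)
  refine ⟨u, g, regular_unitri_one_one.1, regular_unitri_one_one.2, ?_⟩
  have hinvK : ∀ (A B : M3 R), A.mm B = M3.id3 → A.toMat φ ∈ matSet K → B.toMat φ ∈ matSet K := by
    intro A B hAB hA
    refine left_inv_mem_matSet hA (mul_eq_one_comm.1 ?_)
    rw [← hmm, hAB, hid]
  have hgens : ∀ k, (C.gens k).toMat φ ∈ matSet K := by
    intro k
    fin_cases k
    · exact ⟨u, huK, hjb.symm⟩
    · exact ⟨v, hvK, hvM⟩
    · exact hinvK _ _ cu ⟨u, huK, hjb.symm⟩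
    · exact hinvK _ _ cvi ⟨v, hvK, hvM⟩
  have hchk : ∀ (l : List (Fin 4 × M3 R)) (A : M3 R), A.toMat φ ∈ matSet K →
      chk C.gens A l = true → (val A l).toMat φ ∈ matSet K := by
    intro l
    induction l with
    | nil => intro A hA _; simpa [val] using hA
    | cons kb t ih =>
      intro A hA h
      obtain ⟨k, B⟩ := kb
      simp only [chk, Bool.and_eq_true, decide_eq_true_eq] at h
      simp only [val]
      refine ih B ?_ h.2
      rw [← h.1, hmm]
      exact mul_mem_matSet hA (hgens k)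
  set ι : R × R → F × F := fun s => (φ s.1, φ s.2) with hι
  have hdiag : ∀ s ∈ C.diags, ι s ∈ superdiag K := by
    intro s hs
    simp only [Cert.diags, List.mem_map] at hs
    obtain ⟨l, hl, rfl⟩ := hs
    obtain ⟨hl1, e00, e10, e20, e11, e21, e22⟩ := cw l hl
    obtain ⟨x, hx, hxA⟩ := hchk l _ ⟨1, one_mem _, by rw [hid]; rfl⟩ hl1
    refine ⟨φ (val M3.id3 l).a02, ?_⟩
    suffices e : unitri (ι ((val M3.id3 l).a01, (val M3.id3 l).a12)).1
        (ι ((val M3.id3 l).a01, (val M3.id3 l).a12)).2 (φ (val M3.id3 l).a02) = x by rw [e]; exact hx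
    apply Subtype.ext
    rw [show (x : Matrix (Fin 3) (Fin 3) F) = _ from hxA, coe_unitri]
    simp [M3.toMat, hι, e00, e10, e20, e11, e21, e22, h0, h1]
  have hrep : ∀ (s : R × R) (n : ℕ) (a : R × R), ι s ∈ superdiag K → ι a ∈ superdiag K →
      ι (rep s n a) ∈ superdiag K := by
    intro s n a hs ha
    induction n with
    | zero => simpa [rep] using ha
    | succ n ih =>
      have := add_mem ih hs
      simpa [rep, hι, hadd] using this
  have hsums : ∀ L : List (R × R), (∀ s ∈ L, ι s ∈ superdiag K) →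
      ∀ a ∈ sums C.char L, ι a ∈ superdiag K := by
    intro L
    induction L with
    | nil =>
      intro _ a ha
      simp only [sums, List.mem_singleton] at ha
      subst ha
      have : ι (0, 0) = 0 := by simp [hι, h0]
      rw [this]
      exact zero_mem (superdiag K)
    | cons s t ih =>
      intro hL a ha
      simp only [sums, List.mem_flatMap, List.mem_map] at ha
      obtain ⟨b, hb, n, -, rfl⟩ := ha
      exact hrep s n b (hL s (by simp)) (ih (fun s hs => hL s (by simp [hs])) b hb)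
  have hsurj : Function.Surjective φ :=
    ((Fintype.bijective_iff_injective_and_card φ).2 ⟨hinj, hcard⟩).2
  have hall : ∀ p : F × F, p ∈ superdiag K := by
    rintro ⟨x, y⟩
    obtain ⟨a, rfl⟩ := hsurj x
    obtain ⟨b, rfl⟩ := hsurj y
    have := add_mem (hsums _ hdiag _ (cs a).1) (hsums _ hdiag _ (cs b).2)
    simpa [hι, h0] using this
  refine eq_top_of_unitri_mem K (unitri_mem K hall) hvK (mul_mem hvK hvK) ?_
  have hvv : ((v * v : SpecialLinearGroup (Fin 3) F) : Matrix (Fin 3) (Fin 3) F) =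
      (C.v.mm C.v).toMat φ := by
    rw [hmm, ← hvM]; rfl
  rw [hvv, hvM, sub_ne_zero]
  intro h
  refine cr (hinj ?_)
  simpa [M3.toMat, hmul] using h

end Soundness

end CfsgLib.Generators.RegularPairThree
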