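/-
`SL_3(q)`, `q ∉ {2, 3, 4, 7, 16}`: the pair `u`, `v` with `v u v` upper triangular of diagonal
`(1/λ, λ², 1/λ)`, `λ` a generator of the multiplicative group.
-/
import Mathlib
import Cfsg.Agent.Lib.Generators.RegularPairThree

set_option autoImplicit false
set_option linter.unusedSectionVars false

open Matrix

namespace CfsgLib.Generators.RegularPairThree

variable {F : Type*} [Field F]

/-- The second regular unipotent of the generic pair. -/
def vMat (l s : F) : Matrix (Fin 3) (Fin 3) F :=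
  !![0, (3 + 1 / l) / s, -(3 / s); 0, -l, l; s, -(3 + l), 3 + l]

/-- The conjugating matrix of the generic pair. -/
def gMat (l s c : F) : Matrix (Fin 3) (Fin 3) F :=
  !![-2 * c, -c, c; l * s * c, 0, 0; (l * s + s) * c, s * c, 0]

theorem det_gMat (l s c : F) : (gMat l s c).det = l * s ^ 2 * c ^ 3 := by
  rw [gMat, Matrix.det_fin_three]
  simp
  ring

theorem vMat_mul_gMat {l s c : F} (hl : l ≠ 0) (hs : s ≠ 0) :
    vMat l s * gMat l s c = gMat l s c * !![1, 1, 0; 0, 1, 1; 0, 0, 1] := by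
  rw [vMat, gMat, Matrix.mul_fin_three, Matrix.mul_fin_three]
  ext i j
  fin_cases i <;> fin_cases j <;> simp <;> field_simp <;> ring

theorem vuv_entries {l s : F} (hl : l ≠ 0) (hs : s = (l + 1) ^ 3 / l ^ 2) (hs0 : s ≠ 0) :
    let w := vMat l s * !![1, 1, 0; 0, 1, 1; 0, 0, 1] * vMat l s
    w 1 0 = 0 ∧ w 2 0 = 0 ∧ w 2 1 = 0 ∧ w 0 0 = 1 / l ∧ w 1 1 = l ^ 2 ∧ w 2 2 = 1 / l := by
  have hk : s * l ^ 2 = (l + 1) ^ 3 := by rw [hs]; field_simp
  intro w
  simp only [w, vMat, Matrix.mul_fin_three]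
  refine ⟨?_, ?_, ?_, ?_, ?_, ?_⟩ <;> simp <;> field_simp
  all_goals first
    | ring1
    | linear_combination hk
    | linear_combination -hk

/-- The generic pair generates as soon as its ratios give every pair of scalars. -/
theorem exists_pair_of_scalings (l : F) (hl : l ≠ 0) (hl1 : l + 1 ≠ 0)
    (h : ∀ R : Subring (F × F), ((l ^ 3)⁻¹, l ^ 3) ∈ R → R = ⊤) :
    ∃ u g : SpecialLinearGroup (Fin 3) F,
      IsNilpotent ((u : Matrix (Fin 3) (Fin 3) F) - 1) ∧
        ((u : Matrix (Fin 3) (Fin 3) F) - 1) ^ (3 - 1) ≠ 0 ∧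
        Subgroup.closure ({u, g * u * g⁻¹} : Set (SpecialLinearGroup (Fin 3) F)) = ⊤ := by
  set s := (l + 1) ^ 3 / l ^ 2 with hs
  set c := l / (l + 1) ^ 2 with hc
  have hs0 : s ≠ 0 := div_ne_zero (pow_ne_zero _ hl1) (pow_ne_zero _ hl)
  have hg : (gMat l s c).det = 1 := by
    rw [det_gMat, hs, hc]; field_simp
  set u : SpecialLinearGroup (Fin 3) F := unitri 1 1 0 with hu
  set g : SpecialLinearGroup (Fin 3) F := ⟨gMat l s c, hg⟩ with hgdef
  set v := g * u * g⁻¹ with hv
  have hvM : (v : Matrix (Fin 3) (Fin 3) F) = vMat l s := by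
    have h1 : (v : Matrix (Fin 3) (Fin 3) F) * gMat l s c = gMat l s c * !![1, 1, 0; 0, 1, 1; 0, 0, 1] := by
      change ((v * g : SpecialLinearGroup (Fin 3) F) : Matrix (Fin 3) (Fin 3) F) = _
      rw [hv, inv_mul_cancel_right]
      rfl
    rw [← vMat_mul_gMat hl hs0] at h1
    have hu' : IsUnit (gMat l s c).det := by rw [hg]; exact isUnit_one
    have := congrArg (fun M => M * (gMat l s c)⁻¹) h1
    simpa [Matrix.mul_assoc, Matrix.mul_nonsing_inv _ hu'] using this
  set K := Subgroup.closure ({u, v} : Set (SpecialLinearGroup (Fin 3) F)) with hK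
  have huK : u ∈ K := Subgroup.subset_closure (Set.mem_insert _ _)
  have hvK : v ∈ K := Subgroup.subset_closure (Set.mem_insert_of_mem _ rfl)
  refine ⟨u, g, regular_unitri_one_one.1, regular_unitri_one_one.2, ?_⟩
  have hwK : v * u * v ∈ K := mul_mem (mul_mem hvK huK) hvK
  have hwM : ((v * u * v : SpecialLinearGroup (Fin 3) F) : Matrix (Fin 3) (Fin 3) F) =
      vMat l s * !![1, 1, 0; 0, 1, 1; 0, 0, 1] * vMat l s := by
    rw [Matrix.SpecialLinearGroup.coe_mul, Matrix.SpecialLinearGroup.coe_mul, hvM]; rfl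
  obtain ⟨e10, e20, e21, e00, e11, e22⟩ := vuv_entries hl hs hs0
  rw [← hwM] at e10 e20 e21 e00 e11 e22
  have hsc : ((l ^ 3)⁻¹, l ^ 3) ∈ scalings K := by
    intro p hp
    have := superdiag_scale K hwK e10 e20 e21 hp
    rw [e00, e11, e22] at this
    convert this using 2
    ext <;> field_simp
  have h11 : ((1 : F), (1 : F)) ∈ superdiag K := ⟨0, huK⟩
  have hall : ∀ p : F × F, p ∈ superdiag K := by
    intro p
    have hp : p ∈ scalings K := by rw [h _ hsc]; exact Subring.mem_top p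
    have := hp _ h11
    rwa [Prod.mk_one_one, mul_one] at this
  refine eq_top_of_unitri_mem K (unitri_mem K hall) hvK (mul_mem hvK huK) ?_
  have hvu : ((v * u : SpecialLinearGroup (Fin 3) F) : Matrix (Fin 3) (Fin 3) F) =
      vMat l s * !![1, 1, 0; 0, 1, 1; 0, 0, 1] := by
    rw [← hvM]; rfl
  rw [hvu, hvM]
  simp [vMat, Matrix.mul_apply, Fin.sum_univ_three]
  ring_nf
  simpa using pow_ne_zero 2 hs0

variable [Fintype F]

theorem inv_mem_subring (S : Subring F) {x : F} (hx : x ∈ S) : x⁻¹ ∈ S := by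
  rcases eq_or_ne x 0 with rfl | h
  · rw [_root_.inv_zero]; exact zero_mem S
  · have h2 : 1 < Fintype.card F := Fintype.one_lt_card
    have h1 : x * x ^ (Fintype.card F - 2) = 1 := by
      rw [← pow_succ', show Fintype.card F - 2 + 1 = Fintype.card F - 1 by omega,
        FiniteField.pow_card_sub_one_eq_one x h]
    rw [inv_eq_of_mul_eq_one_right h1]
    exact pow_mem hx _

/-- An element avoiding every small multiplicative group generates the field as a ring. -/
theorem subring_eq_top (μ : F) (hμ0 : μ ≠ 0)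
    (hμ : ∀ r : ℕ, 1 < r → r * r ≤ Fintype.card F → μ ^ (r - 1) ≠ 1)
    (S : Subring F) (hS : μ ∈ S) : S = ⊤ := by
  classical
  let T : Subfield F := { S with inv_mem' := fun x hx => inv_mem_subring S hx }
  have hcard := Module.card_eq_pow_finrank (K := T) (V := F)
  have hr : 1 < Fintype.card T := Fintype.one_lt_card
  have hT : μ ^ (Fintype.card T - 1) = 1 := by
    have := FiniteField.pow_card_sub_one_eq_one (⟨μ, hS⟩ : T) (fun h => hμ0 (congrArg Subtype.val h))
    simpa using congrArg Subtype.val this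
  rcases Nat.lt_or_ge (Module.finrank T F) 2 with hk | hk
  · have h1 : Module.finrank T F = 1 := by
      have := Module.finrank_pos (R := T) (M := F)
      omega
    rw [h1, pow_one] at hcard
    rw [eq_top_iff]
    intro x _
    have := Fintype.bijective_iff_injective_and_card (Subtype.val : T → F) |>.2
      ⟨Subtype.val_injective, hcard.symm⟩
    obtain ⟨y, rfl⟩ := this.2 x
    exact y.2
  · refine absurd hT (hμ _ hr ?_)
    rw [hcard, ← pow_two]
    exact Nat.pow_le_pow_right (by omega) hk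

/-- The pair `(μ⁻¹, μ)` generates `F × F` unless `μ` and `μ⁻¹` are conjugate or `μ` lies in a
subfield. -/
theorem subring_prod_eq_top (p : ℕ) [Fact p.Prime] [CharP F p] (μ : F) (hμ0 : μ ≠ 0)
    (h1 : ∀ S : Subring F, μ ∈ S → S = ⊤)
    (h2 : ∀ i : ℕ, p ^ i * p ≤ Fintype.card F → μ ^ (p ^ i + 1) ≠ 1)
    (R : Subring (F × F)) (hR : (μ⁻¹, μ) ∈ R) : R = ⊤ := by
  classical
  have hfst : R.map (RingHom.fst F F) = ⊤ := h1 _ (by
    have := inv_mem_subring (R.map (RingHom.fst F F)) (x := μ⁻¹) ⟨_, hR, rfl⟩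
    rwa [inv_inv] at this)
  have hsnd : R.map (RingHom.snd F F) = ⊤ := h1 _ ⟨_, hR, rfl⟩
  have hex : ∀ x : F, ∃ y, (x, y) ∈ R := fun x => by
    obtain ⟨⟨a, b⟩, hab, rfl⟩ := hfst.ge (Subring.mem_top x)
    exact ⟨b, hab⟩
  have hex' : ∀ y : F, ∃ x, (x, y) ∈ R := fun y => by
    obtain ⟨⟨a, b⟩, hab, rfl⟩ := hsnd.ge (Subring.mem_top y)
    exact ⟨a, hab⟩
  by_cases hJ : ∃ y, y ≠ 0 ∧ ((0 : F), y) ∈ R
  · obtain ⟨y, hy, hyR⟩ := hJ
    rw [eq_top_iff]
    rintro ⟨a, b⟩ -
    obtain ⟨b', hb'⟩ := hex a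
    obtain ⟨a', ha'⟩ := hex' ((b - b') / y)
    have := add_mem hb' (mul_mem ha' hyR)
    convert this using 1
    ext
    · simp
    · simp [hy]
  · simp only [not_exists, not_and] at hJ
    have huniq : ∀ x y y', (x, y) ∈ R → (x, y') ∈ R → y = y' := fun x y y' h h' => by
      by_contra hne
      refine hJ (y - y') (sub_ne_zero.2 hne) ?_
      simpa using sub_mem h h'
    choose σ hσ using hex
    let f : F →+* F :=
      { toFun := σ
        map_one' := huniq 1 _ _ (hσ 1) (one_mem R)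
        map_mul' := fun a b => huniq _ _ _ (hσ _) (mul_mem (hσ a) (hσ b))
        map_zero' := huniq 0 _ _ (hσ 0) (zero_mem R)
        map_add' := fun a b => huniq _ _ _ (hσ _) (add_mem (hσ a) (hσ b)) }
    let _inst : Algebra (ZMod p) F := ZMod.algebra F p
    let g : F →ₐ[ZMod p] F :=
      { f with
        commutes' := fun r =>
          RingHom.congr_fun (Subsingleton.elim (f.comp (algebraMap (ZMod p) F)) _) r }
    obtain ⟨⟨i, hi⟩, hig⟩ := (FiniteField.bijective_frobeniusAlgHom_pow (ZMod p) F).2 g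
    have hσμ : σ μ⁻¹ = μ := huniq _ _ _ (hσ _) hR
    have hg : g μ⁻¹ = μ⁻¹ ^ p ^ i := by
      rw [← hig, AlgHom.coe_pow, FiniteField.coe_frobeniusAlgHom, pow_iterate, ZMod.card]
    refine absurd ?_ (h2 i ?_)
    · have : μ = μ⁻¹ ^ p ^ i := by rw [← hg]; exact hσμ.symm
      rw [pow_succ]
      nth_rewrite 2 [this]
      rw [← mul_pow, mul_inv_cancel₀ hμ0, one_pow]
    · rw [Module.card_eq_pow_finrank (K := ZMod p) (V := F), ZMod.card, ← pow_succ]
      exact Nat.pow_le_pow_right (Fact.out (p := p.Prime)).pos hi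

theorem exceptional_of_eq {P x k : ℕ} (hP : 1 ≤ P) (hx : 2 ≤ x)
    (h : k * (P * x - 1) = 3 * (P + 1)) :
    P * x = 2 ∨ P * x = 3 ∨ P * x = 4 ∨ P * x = 7 ∨ P * x = 10 ∨ P * x = 16 := by
  have hPx : 2 * P ≤ P * x := by rw [mul_comm 2 P]; exact Nat.mul_le_mul_left P hx
  have hk : k ≤ 6 := by
    by_contra hk
    have := Nat.mul_le_mul (show 7 ≤ k by omega) (show 2 * P - 1 ≤ P * x - 1 by omega)
    omega
  have hk0 : k ≠ 0 := by rintro rfl; omega
  have hx3 : P * x ≤ 3 * P ∨ 4 * P ≤ P * x := by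
    rcases le_or_gt x 3 with h3 | h3
    · exact Or.inl (by rw [mul_comm 3 P]; exact Nat.mul_le_mul_left P h3)
    · exact Or.inr (by rw [mul_comm 4 P]; exact Nat.mul_le_mul_left P h3)
  interval_cases k
  · omega
  all_goals
    have hP9 : P ≤ 9 := by omega
    interval_cases P <;> omega

/-- Away from five small fields the generic pair applies. -/
theorem exists_pair_generic
    (hq : Fintype.card F ∉ ({2, 3, 4, 7, 16} : Finset ℕ)) :
    ∃ u g : SpecialLinearGroup (Fin 3) F,
      IsNilpotent ((u : Matrix (Fin 3) (Fin 3) F) - 1) ∧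
        ((u : Matrix (Fin 3) (Fin 3) F) - 1) ^ (3 - 1) ≠ 0 ∧
        Subgroup.closure ({u, g * u * g⁻¹} : Set (SpecialLinearGroup (Fin 3) F)) = ⊤ := by
  classical
  simp only [Finset.mem_insert, Finset.mem_singleton, not_or] at hq
  obtain ⟨h2, h3, h4, h7, h16⟩ := hq
  obtain ⟨θ, hθ⟩ := IsCyclic.exists_generator (α := Fˣ)
  obtain ⟨p, hp, e, hpp, hcard⟩ := FiniteField.card' F
  have : Fact p.Prime := ⟨hpp⟩
  have := hp
  have hq1 : 1 < Fintype.card F := Fintype.one_lt_card
  have hord : orderOf (θ : F) = Fintype.card F - 1 := by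
    rw [orderOf_units, orderOf_eq_card_of_forall_mem_zpowers hθ, Nat.card_eq_fintype_card,
      Fintype.card_units]
  have hpow : ∀ n, ((θ : F) ^ 3) ^ n = 1 → Fintype.card F - 1 ∣ 3 * n := fun n hn => by
    rw [← hord]
    exact orderOf_dvd_of_pow_eq_one (by rw [pow_mul]; exact hn)
  refine exists_pair_of_scalings (θ : F) θ.ne_zero ?_ ?_
  · intro h
    have : (θ : F) ^ 2 = 1 := by linear_combination ((θ : F) - 1) * h
    have := Nat.le_of_dvd (by norm_num) (hord ▸ orderOf_dvd_of_pow_eq_one this)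
    omega
  · refine fun R hR => subring_prod_eq_top p _ (pow_ne_zero 3 θ.ne_zero) ?_ ?_ R hR
    · refine subring_eq_top _ (pow_ne_zero 3 θ.ne_zero) fun r hr hrr hcon => ?_
      have hle := Nat.le_of_dvd (by omega) (hpow _ hcon)
      rcases eq_or_lt_of_le (show 2 ≤ r by omega) with rfl | hr3
      · omega
      · have := Nat.mul_le_mul_left r (show 3 ≤ r by omega)
        omega
    · intro i hi hcon
      obtain ⟨k, hk⟩ := hpow _ hcon
      have hcard' : Fintype.card F = p ^ (e : ℕ) := hcard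
      have hie : i + 1 ≤ (e : ℕ) := by
        by_contra hlt
        have := Nat.pow_lt_pow_right hpp.one_lt (show (e : ℕ) < i + 1 by omega)
        rw [pow_succ, ← hcard'] at this
        omega
      have hsplit : Fintype.card F = p ^ i * p ^ ((e : ℕ) - i) := by
        rw [hcard', ← pow_add]; congr 1; omega
      have hx : 2 ≤ p ^ ((e : ℕ) - i) :=
        le_trans hpp.two_le (Nat.le_self_pow (by omega) p)
      have := exceptional_of_eq (k := k) (Nat.one_le_pow _ _ hpp.pos) hx
        (by rw [← hsplit, mul_comm k]; exact hk.symm)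
      rw [← hsplit] at this
      rcases this with h | h | h | h | h | h <;> first | omega | skip
      have e2 := (Nat.prime_dvd_prime_iff_eq Nat.prime_two hpp).1
        (Nat.prime_two.dvd_of_dvd_pow (n := (e : ℕ)) (by rw [← hcard', h]; norm_num))
      have e5 := (Nat.prime_dvd_prime_iff_eq Nat.prime_five hpp).1
        (Nat.prime_five.dvd_of_dvd_pow (n := (e : ℕ)) (by rw [← hcard', h]; norm_num))
      omega

end CfsgLib.Generators.RegularPairThree
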